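import Cfsg.Agent.H795.SetTor
import Cfsg.Agent.ChevalleyStructure.CoxeterGeomTypes
import Cfsg.Agent.S1092

/-!
# The elements of order `3` of the Weyl group of type `G₂` (S3826)

`tors_of_certs` : the certificate with arbitrary reflections; `tors_G2` : `Tors 3` for `G₂`.
-/

set_option autoImplicit false
set_option linter.unusedSectionVars false

namespace Cfsg.Agent.H926.WG2.Tors

open CoxeterSystem Cfsg Cfsg.Lie Cfsg.Agent.ChevalleyStructure.CoxeterGeom Cfsg.Agent.ChevalleyStructure.CoxeterGeomTypes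
  Cfsg.Agent.Tits.Roots Cfsg.Agent.Tits.Core
  Cfsg.Agent.Tits.RootComb Cfsg.Agent.Nodes.Reps Cfsg.Agent.Nodes.BNOf
  Cfsg.Agent.Nodes.StabComb Cfsg.Agent.Nodes.SubComb Cfsg.Agent.Nodes.Coroot
  Cfsg.Agent.H795.SetTor

variable {I W : Type*} [Fintype I] [DecidableEq I] [Group W] {M : CoxeterMatrix I}
  {cs : CoxeterSystem M W} {A : I → I → ℤ} {h : IsCartan M A}

/-- The certificate for one element of order `l`, `l ∥ |W|`, as a product of arbitrary reflections. -/
theorem tors_of_certs [Finite W] {l : ℕ} (hl : l.Prime) (hW : ¬ l ^ 2 ∣ Nat.card W) (L : List (W × I)) (w₀ : W)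
    (hw₀ : w₀ = (L.map fun q => rfl' cs q.1 q.2).prod) (ho : orderOf w₀ = l)
    (hx : ∀ q ∈ L, ∃ x : I → ℤ, rep cs h w₀ x - x = rep cs h q.1 (sr q.2)) : Tors cs h l := by
  classical
  intro w hw
  have hfl : Fact l.Prime := ⟨hl⟩
  have hdvd : l ∣ Nat.card W := ho ▸ orderOf_dvd_natCard w₀
  have hsyl : ∀ v : W, orderOf v = l → ∃ P : Sylow l W, (P : Subgroup W) = Subgroup.zpowers v := by
    intro v hv
    have h1 : IsPGroup l ↥(Subgroup.zpowers v) :=
      IsPGroup.of_card (n := 1) (by rw [Nat.card_zpowers, hv, pow_one])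
    have h2 : ¬ l ∣ (Subgroup.zpowers v).index := by
      intro hd
      apply hW
      rw [← Subgroup.card_mul_index (Subgroup.zpowers v), Nat.card_zpowers, hv, pow_two]
      exact Nat.mul_dvd_mul_left l hd
    exact ⟨h1.toSylow h2, rfl⟩
  obtain ⟨P, hP⟩ := hsyl w hw
  obtain ⟨P₀, hP₀⟩ := hsyl w₀ ho
  obtain ⟨g, hg⟩ := MulAction.exists_smul_eq W P₀ P
  have h1 : g * w₀ * g⁻¹ ∈ Subgroup.zpowers w := by
    rw [← hP, ← hg, Sylow.coe_subgroup_smul, Subgroup.mem_pointwise_smul_iff_inv_smul_mem, ← map_inv, MulAut.smul_def,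
      MulAut.conj_apply, inv_inv, hP₀]
    have e : g⁻¹ * (g * w₀ * g⁻¹) * g = w₀ := by group
    rw [e]
    exact Subgroup.mem_zpowers w₀
  have hfin : IsOfFinOrder w := isOfFinOrder_of_finite w
  obtain ⟨i, hi⟩ := hfin.mem_powers_iff_mem_zpowers.2 h1
  have hi' : w ^ i = g * w₀ * g⁻¹ := hi
  have hord : orderOf (g * w₀ * g⁻¹) = l := by
    rw [← MulAut.conj_apply]
    rw [← ho]
    exact orderOf_injective (MulAut.conj g).toMonoidHom (MulAut.conj g).injective w₀
  have h2 : w ∈ Subgroup.zpowers (g * w₀ * g⁻¹) := by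
    have h3 : Subgroup.zpowers (g * w₀ * g⁻¹) ≤ Subgroup.zpowers w := Subgroup.zpowers_le.2 h1
    have h4 : Subgroup.zpowers (g * w₀ * g⁻¹) = Subgroup.zpowers w := by
      refine Subgroup.eq_of_le_of_card_ge h3 ?_
      rw [Nat.card_zpowers, Nat.card_zpowers, hord, hw]
    rw [h4]
    exact Subgroup.mem_zpowers w
  have hsum : ∀ (m : ℕ) (y : I → ℤ), ∃ x, rep cs h w x - x = rep cs h (w ^ m) y - y := by
    intro m y
    induction m with
    | zero => exact ⟨0, by rw [map_zero, sub_zero, pow_zero, map_one, Module.End.one_apply, sub_self]⟩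
    | succ m ih =>
      obtain ⟨x, hx⟩ := ih
      refine ⟨x + rep cs h (w ^ m) y, ?_⟩
      rw [map_add, pow_succ', rep_mul_apply]
      have : rep cs h w x - x = rep cs h (w ^ m) y - y := hx
      have e : rep cs h w x = rep cs h (w ^ m) y - y + x := by rw [← this]; abel
      rw [e]
      abel
  have h5 : g * w₀ * g⁻¹ ∈ Subgroup.closure {v | ∃ (u : W) (i : I) (x : I → ℤ), v = rfl' cs u i ∧
      rep cs h w x - x = rep cs h u (sr i)} := by
    have h6 : ∀ q ∈ L, g * rfl' cs q.1 q.2 * g⁻¹ ∈ Subgroup.closure {v | ∃ (u : W) (i : I) (x : I → ℤ),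
        v = rfl' cs u i ∧ rep cs h w x - x = rep cs h u (sr i)} := by
      intro q hq
      apply Subgroup.subset_closure
      obtain ⟨x, hx⟩ := hx q hq
      obtain ⟨y, hy⟩ := hsum i (rep cs h g x)
      refine ⟨g * q.1, q.2, y, ?_, ?_⟩
      · rw [rfl', rfl']
        group
      rw [hy, hi', rep_mul_apply, rep_mul_apply, rep_mul_apply]
      have e : rep cs h g⁻¹ (rep cs h g x) = x := by
        rw [← rep_mul_apply, inv_mul_cancel, map_one, Module.End.one_apply]
      rw [e, ← hx, map_sub]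
    have h7 : ∀ L' : List (W × I), (∀ j ∈ L', j ∈ L) → g * (L'.map fun q => rfl' cs q.1 q.2).prod * g⁻¹ ∈
        Subgroup.closure {v | ∃ (u : W) (i : I) (x : I → ℤ), v = rfl' cs u i ∧
        rep cs h w x - x = rep cs h u (sr i)} := by
      intro L'
      induction L' with
      | nil =>
        intro _
        rw [List.map_nil, List.prod_nil, mul_one, mul_inv_cancel]
        exact one_mem _
      | cons j L' ih =>
        intro hL'
        rw [List.map_cons, List.prod_cons]
        have e : g * (rfl' cs j.1 j.2 * (L'.map fun q => rfl' cs q.1 q.2).prod) * g⁻¹ =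
            (g * rfl' cs j.1 j.2 * g⁻¹) * (g * (L'.map fun q => rfl' cs q.1 q.2).prod * g⁻¹) := by
          group
        rw [e]
        exact mul_mem (h6 j (hL' j (List.mem_cons_self))) (ih fun j' hj' => hL' j' (List.mem_cons_of_mem _ hj'))
    rw [hw₀]
    exact h7 L fun _ hj => hj
  exact (Subgroup.zpowers_le.2 h5) h2

/-! ### type `G₂` -/

section G2

variable {W : Type*} [Group W] (cs : CoxeterSystem CoxeterMatrix.G₂ W)

theorem cartan_val : cartanOf chevG2 2 0 0 = 2 ∧ cartanOf chevG2 2 0 1 = -3 ∧ cartanOf chevG2 2 1 0 = -1 ∧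
    cartanOf chevG2 2 1 1 = 2 := by decide +kernel

theorem r0 (x : Fin 2 → ℤ) : rep cs isCartan_G2 (cs.simple 0) x = ![-x 0 + 3 * x 1, x 1] := by
  obtain ⟨h1, h2, h3, h4⟩ := cartan_val
  rw [rep_simple_eq]
  funext j
  fin_cases j
  · simp [pairing, Fin.sum_univ_two, sr, h1, h2]; ring
  · simp [sr]

theorem r1 (x : Fin 2 → ℤ) : rep cs isCartan_G2 (cs.simple 1) x = ![x 0, x 0 - x 1] := by
  obtain ⟨h1, h2, h3, h4⟩ := cartan_val
  rw [rep_simple_eq]
  funext j
  fin_cases j
  · simp [sr]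
  · simp [pairing, Fin.sum_univ_two, sr, h3, h4]; ring

theorem sr0 : (sr 0 : Fin 2 → ℤ) = ![1, 0] := by decide
theorem sr1 : (sr 1 : Fin 2 → ℤ) = ![0, 1] := by decide

theorem card_W (cs : CoxeterSystem CoxeterMatrix.G₂ W) : Nat.card W = 12 := by
  rw [Nat.card_congr cs.mulEquiv.toEquiv]
  exact S1092.result (⟨2, CoxeterMatrix.G₂⟩, 12) (by simp)

/-- **Elements of order `3`.** -/
theorem tors_G2 : Tors cs isCartan_G2 3 := by
  have hc := card_W cs
  have : Finite W := Nat.finite_of_card_ne_zero (by rw [hc]; norm_num)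
  have e1 : ∀ x, rep cs isCartan_G2 (cs.simple 1 * cs.simple 0) x = ![-x 0 + 3 * x 1, -x 0 + 2 * x 1] := by
    intro x
    rw [rep_mul_apply, r0, r1]
    funext j
    fin_cases j
    · simp
    · simp; ring
  have e2 : ∀ x, rep cs isCartan_G2 ((cs.simple 1 * cs.simple 0) ^ 2) x = ![-2 * x 0 + 3 * x 1, -x 0 + x 1] := by
    intro x
    rw [pow_two, rep_mul_apply, e1, e1]
    funext j
    fin_cases j
    · simp; ring
    · simp; ring
  have h6 : (cs.simple 1 * cs.simple 0) ^ 6 = 1 := cs.simple_mul_simple_pow 1 0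
  have ho : orderOf ((cs.simple 1 * cs.simple 0) ^ 2) = 3 := by
    have : Fact (Nat.Prime 3) := ⟨Nat.prime_three⟩
    refine orderOf_eq_prime (by rw [← pow_mul]; exact h6) fun h1 => ?_
    have h2 := e2 (sr 0)
    rw [h1, map_one, Module.End.one_apply] at h2
    have h3 := congrFun h2 0
    simp [sr0] at h3
  refine tors_of_certs Nat.prime_three (by rw [hc]; norm_num) [(1, 1), (cs.simple 0, 1)]
    ((cs.simple 1 * cs.simple 0) ^ 2) ?_ ho ?_
  · simp only [List.map_cons, List.map_nil, List.prod_cons, List.prod_nil, rfl', mul_one, one_mul, inv_one]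
    rw [cs.inv_simple, pow_two]
    group
  · intro q hq
    simp only [List.mem_cons, List.not_mem_nil, or_false] at hq
    rcases hq with rfl | rfl
    · refine ⟨![-1, -1], ?_⟩
      rw [e2, map_one, Module.End.one_apply, sr1]
      decide
    · refine ⟨![-1, 0], ?_⟩
      rw [e2, r0, sr1]
      decide

end G2

end Cfsg.Agent.H926.WG2.Tors
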